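import Cfsg.Agent.R2.T1.Odd.Typ

/-!
# Coset tables and certificates for permutation modules of alternating groups (helper8)

* `chkF` : the check of a coset table; `EL ρ R L` : the operator `∑ c • ρ (R i)`, `(c, i) ∈ L`;
* `XL ρ gs X` : the operator `∑ c • ρ (w)`, `(c, w) ∈ X`; `XL_EL` : the product, on fixed vectors;
* `eqv`, `EL_eq` : equality of the coefficients modulo `p`.
-/

set_option autoImplicit false

namespace Cfsg.Agent.E8A.C65

open Module
open Cfsg.Agent.R2.T1.Odd

/-- the check of a coset table -/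
def chkF (m : ℕ) (gs gT R : List (List (ℕ × ℕ))) (tab : List (List ℕ)) (wit : List (List (List ℕ))) : Bool :=
  gs.all (vl m) && gT.all (vl m) && R.all (vl m) &&
    (List.range gs.length).all fun j => (List.range R.length).all fun i =>
      Nat.blt ((tab.getD j []).getD i 0) R.length &&
        cd m (gs.getD j [] ++ R.getD i []) == cd m (R.getD ((tab.getD j []).getD i 0) [] ++ wd gT ((wit.getD j []).getD i []))

/-- the action of a word on the cosets -/
def wI (tab : List (List ℕ)) (w : List ℕ) (i : ℕ) : ℕ := w.foldr (fun j k => (tab.getD j []).getD k 0) i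

/-- the product of two formal sums -/
def pr (tab : List (List ℕ)) (X : List (ℕ × List ℕ)) (L : List (ℕ × ℕ)) : List (ℕ × ℕ) :=
  X.flatMap fun x => L.map fun e => (x.1 * e.1, wI tab x.2 e.2)

/-- the coefficient -/
def cnt (L : List (ℕ × ℕ)) (k : ℕ) : ℕ := L.foldr (fun e s => if Nat.beq e.2 k then e.1 + s else s) 0

/-- the indices are in the range -/
def okL (N : ℕ) (L : List (ℕ × ℕ)) : Bool := L.all fun e => Nat.blt e.2 N

/-- the letters are in the range -/
def okX (N : ℕ) (X : List (ℕ × List ℕ)) : Bool := X.all fun x => x.2.all fun j => Nat.blt j N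

/-- equality of formal sums modulo `p` -/
def eqv (p N : ℕ) (L L' : List (ℕ × ℕ)) : Bool :=
  okL N L && okL N L' && (List.range N).all fun k => Nat.beq (cnt L k % p) (cnt L' k % p)

variable {n : ℕ} [NeZero n] {F : Type*} [Field F] {W : Type*} [AddCommGroup W] [Module F W]
  (ρ : Representation F ↥(alternatingGroup (Fin n)) W)

/-- the operator of a formal sum of coset representatives -/
noncomputable def EL (R : List (List (ℕ × ℕ))) (L : List (ℕ × ℕ)) : Module.End F W :=
  (L.map fun e => (e.1 : F) • ρ (P n (R.getD e.2 []))).sum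

/-- the operator of a formal sum of words -/
noncomputable def XL (gs : List (List (ℕ × ℕ))) (X : List (ℕ × List ℕ)) : Module.End F W :=
  (X.map fun x => (x.1 : F) • ρ (P n (wd gs x.2))).sum

variable {ρ}

theorem EL_nil (R : List (List (ℕ × ℕ))) (v : W) : EL ρ R [] v = 0 := rfl

theorem EL_cons (R : List (List (ℕ × ℕ))) (e : ℕ × ℕ) (L : List (ℕ × ℕ)) (v : W) :
    EL ρ R (e :: L) v = (e.1 : F) • ρ (P n (R.getD e.2 [])) v + EL ρ R L v := rfl

theorem EL_append (R : List (List (ℕ × ℕ))) (L L' : List (ℕ × ℕ)) (v : W) :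
    EL ρ R (L ++ L') v = EL ρ R L v + EL ρ R L' v := by
  unfold EL
  rw [List.map_append, List.sum_append, LinearMap.add_apply]

theorem XL_nil (gs : List (List (ℕ × ℕ))) (v : W) : XL ρ gs [] v = 0 := rfl

theorem XL_cons (gs : List (List (ℕ × ℕ))) (x : ℕ × List ℕ) (X : List (ℕ × List ℕ)) (v : W) :
    XL ρ gs (x :: X) v = (x.1 : F) • ρ (P n (wd gs x.2)) v + XL ρ gs X v := rfl

theorem XL_one (gs : List (List (ℕ × ℕ))) (w : List ℕ) (v : W) : XL ρ gs [(1, w)] v = ρ (P n (wd gs w)) v := by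
  rw [XL_cons, XL_nil, add_zero, Nat.cast_one, one_smul]

theorem EL_sum (R : List (List (ℕ × ℕ))) {N : ℕ} {L : List (ℕ × ℕ)} (h : okL N L = true) (v : W) :
    EL ρ R L v = ∑ k ∈ Finset.range N, (cnt L k : F) • ρ (P n (R.getD k [])) v := by
  induction L with
  | nil => exact (Finset.sum_eq_zero fun k _ => by rw [show cnt [] k = 0 from rfl, Nat.cast_zero, zero_smul]).symm
  | cons e L ih =>
    unfold okL at h
    rw [List.all_cons, Bool.and_eq_true, Nat.blt_eq] at h
    have h1 : ∀ k ∈ Finset.range N, (cnt (e :: L) k : F) • ρ (P n (R.getD k [])) v =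
        (if e.2 = k then (e.1 : F) • ρ (P n (R.getD k [])) v else 0) + (cnt L k : F) • ρ (P n (R.getD k [])) v := by
      intro k _
      have h2 : cnt (e :: L) k = if Nat.beq e.2 k then e.1 + cnt L k else cnt L k := rfl
      rw [h2]
      by_cases e1 : e.2 = k
      · rw [if_pos (nb.2 e1), if_pos e1, Nat.cast_add, add_smul]
      · rw [if_neg (nb' e1), if_neg e1, zero_add]
    rw [EL_cons, ih h.2, Finset.sum_congr rfl h1, Finset.sum_add_distrib, Finset.sum_ite_eq,
      if_pos (Finset.mem_range.2 h.1)]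

theorem EL_eq (p : ℕ) [CharP F p] (R : List (List (ℕ × ℕ))) {N : ℕ} {L L' : List (ℕ × ℕ)} (h : eqv p N L L' = true)
    (v : W) : EL ρ R L v = EL ρ R L' v := by
  unfold eqv at h
  rw [Bool.and_eq_true, Bool.and_eq_true] at h
  rw [EL_sum R h.1.1, EL_sum R h.1.2]
  refine Finset.sum_congr rfl fun k hk => ?_
  have h1 := nb.1 (List.all_eq_true.1 h.2 k (List.mem_range.2 (Finset.mem_range.1 hk)))
  rw [CharP.cast_eq_mod F p (cnt L k), h1, ← CharP.cast_eq_mod]

section tab

variable {m : ℕ} {gs gT R : List (List (ℕ × ℕ))} {tab : List (List ℕ)} {wit : List (List (List ℕ))}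

theorem chkF_spec (h : chkF m gs gT R tab wit = true) : gs.all (vl m) = true ∧ gT.all (vl m) = true ∧
    R.all (vl m) = true ∧ ∀ j < gs.length, ∀ i < R.length, (tab.getD j []).getD i 0 < R.length ∧
      cd m (gs.getD j [] ++ R.getD i []) = cd m (R.getD ((tab.getD j []).getD i 0) [] ++ wd gT ((wit.getD j []).getD i [])) := by
  unfold chkF at h
  simp only [Bool.and_eq_true] at h
  refine ⟨h.1.1.1, h.1.1.2, h.1.2, fun j hj i hi => ?_⟩
  have h1 := List.all_eq_true.1 (List.all_eq_true.1 h.2 j (List.mem_range.2 hj)) i (List.mem_range.2 hi)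
  rw [Bool.and_eq_true, Nat.blt_eq] at h1
  exact ⟨h1.1, eq_of_beq h1.2⟩

theorem act_word (hm : m ≤ n) (h : chkF m gs gT R tab wit = true) {v : W} (hv : v ∈ inv ρ (Tg n gT)) {w : List ℕ}
    (hw : (w.all fun j => Nat.blt j gs.length) = true) {i : ℕ} (hi : i < R.length) :
    wI tab w i < R.length ∧ ρ (P n (wd gs w)) (ρ (P n (R.getD i [])) v) = ρ (P n (R.getD (wI tab w i) [])) v := by
  obtain ⟨h1, h2, h3, h4⟩ := chkF_spec h
  induction w with
  | nil => exact ⟨hi, by rw [wd_nil, P_nil, map_one]; rfl⟩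
  | cons j w ih =>
    rw [List.all_cons, Bool.and_eq_true, Nat.blt_eq] at hw
    obtain ⟨h5, h6⟩ := ih hw.2
    obtain ⟨h7, h8⟩ := h4 j hw.1 _ h5
    refine ⟨h7, ?_⟩
    have h9 := (P_eq_iff (n := n) hm (vl_append (vl_getD h1 j) (vl_getD h3 _)) (vl_append (vl_getD h3 _) (vl_wd h2 _))).2 h8
    rw [P_append hm (vl_getD h1 j) (vl_getD h3 _), P_append hm (vl_getD h3 _) (vl_wd h2 _)] at h9
    rw [wd_cons, P_append hm (vl_getD h1 j) (vl_wd h1 w), map_mul, Module.End.mul_apply, h6, ← Module.End.mul_apply,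
      ← map_mul, h9, map_mul, Module.End.mul_apply, hv _ (P_wd_mem hm h2 _)]
    rfl

theorem act_EL (hm : m ≤ n) (h : chkF m gs gT R tab wit = true) {v : W} (hv : v ∈ inv ρ (Tg n gT)) {w : List ℕ}
    (hw : (w.all fun j => Nat.blt j gs.length) = true) (c : ℕ) {L : List (ℕ × ℕ)} (hL : okL R.length L = true) :
    (c : F) • ρ (P n (wd gs w)) (EL ρ R L v) = EL ρ R (L.map fun e => (c * e.1, wI tab w e.2)) v := by
  induction L with
  | nil => rw [List.map_nil, EL_nil, map_zero, smul_zero]
  | cons e L ih =>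
    unfold okL at hL
    rw [List.all_cons, Bool.and_eq_true, Nat.blt_eq] at hL
    rw [List.map_cons, EL_cons, EL_cons, map_add, smul_add, ih hL.2, map_smul, (act_word hm h hv hw hL.1).2, smul_smul,
      Nat.cast_mul]

theorem XL_EL (hm : m ≤ n) (h : chkF m gs gT R tab wit = true) {v : W} (hv : v ∈ inv ρ (Tg n gT))
    {X : List (ℕ × List ℕ)} (hX : okX gs.length X = true) {L : List (ℕ × ℕ)} (hL : okL R.length L = true) :
    XL ρ gs X (EL ρ R L v) = EL ρ R (pr tab X L) v := by
  induction X with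
  | nil => rfl
  | cons x X ih =>
    unfold okX at hX
    rw [List.all_cons, Bool.and_eq_true] at hX
    rw [XL_cons, ih hX.2, act_EL hm h hv hX.1 x.1 hL, ← EL_append]
    rfl

end tab

theorem mem_inv_Tg {gens : List (List (ℕ × ℕ))} {v : W} (h : ∀ g ∈ gens, ρ (P n g) v = v) : v ∈ inv ρ (Tg n gens) :=
  mem_inv_closure.2 (by
    rintro _ ⟨g, hg, rfl⟩
    exact h g hg)

end Cfsg.Agent.E8A.C65
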