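import Cfsg.Agent.E8A.C65.Data
import Cfsg.Agent.E8A.Two.Wcj
import Cfsg.Agent.E8A.Asm.Iface

/-!
# The box C65: `A₆` in characteristic 5 (helper8)

* `syl` : `5 f(s) ≤ 5 f(⟨s, u⟩) + 2 · 248` for an involution `s` inverting an element `u` of order 5;
* `c65 : CASE 6 (· = 5)`.
-/

set_option autoImplicit false
set_option maxRecDepth 100000

namespace Cfsg.Agent.E8A.C65

open Cfsg Cfsg.Lie Module
open Cfsg.Agent.R2.T1.Odd Cfsg.Agent.R2.T1.Art
open Cfsg.Agent.H952.F4 (MaxAlt ev)
open Cfsg.Agent.E8A.Inf (kf kf_act kf_act' kf_comm finrank_perp finrank_L8)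

universe u

section lin

variable {K V : Type*} [Field K] [AddCommGroup V] [Module K V] [FiniteDimensional K V]

theorem rank_null (N : Module.End K V) (X : Submodule K V) :
    finrank K ↥(X.map N) + finrank K ↥(X ⊓ LinearMap.ker N : Submodule K V) = finrank K ↥X := by
  have h1 := LinearMap.finrank_range_add_finrank_ker (N.domRestrict X)
  rw [LinearMap.range_domRestrict, LinearMap.ker_domRestrict, ← Submodule.finrank_map_subtype_eq X,
    Submodule.map_comap_subtype] at h1
  exact h1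

theorem step (N : Module.End K V) {X Y : Submodule K V} (h : X ≤ Y) :
    finrank K ↥X ≤ finrank K ↥(X.map N) + finrank K ↥(Y ⊓ LinearMap.ker N : Submodule K V) := by
  rw [← rank_null N X]
  exact Nat.add_le_add_left (Submodule.finrank_mono (inf_le_inf_right _ h)) _

theorem chain5 {N : Module.End K V} (h5 : N ^ 5 = 0) {A B : Submodule K V} (hA : A.map N ≤ B) (hB : B.map N ≤ A) :
    finrank K ↥A ≤ 3 * finrank K ↥(A ⊓ LinearMap.ker N : Submodule K V) +
      2 * finrank K ↥(B ⊓ LinearMap.ker N : Submodule K V) := by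
  have h2 : (A.map N).map N ≤ A := (Submodule.map_mono hA).trans hB
  have h3 : ((A.map N).map N).map N ≤ B := (Submodule.map_mono h2).trans hA
  have h4 : (((A.map N).map N).map N).map N ≤ A := (Submodule.map_mono h3).trans hB
  have h6 : ((((A.map N).map N).map N).map N).map N = ⊥ := by
    rw [eq_bot_iff]
    rintro _ ⟨_, ⟨_, ⟨_, ⟨_, ⟨x, -, rfl⟩, rfl⟩, rfl⟩, rfl⟩, rfl⟩
    have h7 : (N ^ 5) x = N (N (N (N (N x)))) := rfl
    rw [← h7, h5]
    exact Submodule.zero_mem _
  have k0 := step N (le_refl A)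
  have k1 := step N hA
  have k2 := step N h2
  have k3 := step N h3
  have k4 := step N h4
  rw [h6, finrank_bot] at k4
  omega

end lin

section syl

variable {F : Type u} [Field F]

/-- **(b)** -/
theorem syl [CharP F 5] {s u : G8 F} (hu : u ^ 5 = 1) (hsu : s * u = u⁻¹ * s) {D : Submodule F (L8 F)}
    (hD : ∀ v, act s v = v → act u v = v → v ∈ D) : 5 * ev (LK F s) 1 ≤ 5 * finrank F ↥D + 496 := by
  have : Fact (Nat.Prime 5) := ⟨Nat.prime_five⟩
  have h2 : (2 : F) ≠ 0 := by
    intro h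
    have h1 := (CharP.cast_eq_zero_iff F 5 2).1 (by exact_mod_cast h)
    omega
  obtain ⟨N, hN⟩ : ∃ N : Module.End F (L8 F), N = LK F u - LK F u⁻¹ := ⟨_, rfl⟩
  have hNa : ∀ v, N v = act u v - act u⁻¹ v := fun v => by rw [hN]; rfl
  have hsu' : s * u⁻¹ = u * s := by
    rw [mul_inv_eq_iff_eq_mul, mul_assoc, hsu, mul_inv_cancel_left]
  have hsN : ∀ v, act s (N v) = -N (act s v) := fun v => by
    rw [hNa, hNa, act_sub, ← act_mul, ← act_mul, hsu, hsu', act_mul, act_mul, neg_sub]
  have h5 : N ^ 5 = 0 := by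
    have : Nontrivial (Module.End F (L8 F)) := ⟨0, 1, fun h => ee_ne_zero (K := F) (Sum.inl (xi 0)) (by
      have h1 := congrArg (fun T : Module.End F (L8 F) => T (ee F (Sum.inl (xi 0)))) h
      exact h1.symm)⟩
    have : CharP (Module.End F (L8 F)) 5 := charP_of_injective_algebraMap (algebraMap F _).injective 5
    have h1 : Commute (LK F u) (LK F u⁻¹) := (Commute.refl u).inv_right.map (LK F)
    rw [hN, sub_pow_char_of_commute 5 h1, ← map_pow, ← map_pow, inv_pow, hu, inv_one, sub_self]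
  obtain ⟨A, hA⟩ : ∃ A, A = Module.End.eigenspace (LK F s) 1 := ⟨_, rfl⟩
  obtain ⟨B, hB⟩ : ∃ B, B = Module.End.eigenspace (LK F s) (-1) := ⟨_, rfl⟩
  have mA : ∀ v, v ∈ A ↔ act s v = v := fun v => by
    rw [hA, Module.End.mem_eigenspace_iff, one_smul, LK_apply]
  have mB : ∀ v, v ∈ B ↔ act s v = -v := fun v => by
    rw [hB, Module.End.mem_eigenspace_iff, neg_one_smul, LK_apply]
  have hAB : A.map N ≤ B := by
    rintro _ ⟨x, hx, rfl⟩
    rw [mB, hsN, (mA x).1 hx]
  have hBA : B.map N ≤ A := by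
    rintro _ ⟨x, hx, rfl⟩
    rw [mA, hsN, (mB x).1 hx, map_neg, neg_neg]
  have k1 := chain5 h5 hAB hBA
  have k2 := rank_null N A
  have k3 := finrank_perp (A.map N)
  have k4 : A ⊔ (B ⊓ LinearMap.ker N) ≤ LinearMap.BilinForm.orthogonal (kf F) (A.map N) := by
    refine sup_le (fun y hy => ?_) fun y hy => ?_
    · intro x hx
      have h3 := kf_act s x y
      rw [(mB x).1 (hAB hx), (mA y).1 hy, map_neg, LinearMap.neg_apply, neg_eq_iff_add_eq_zero, ← two_mul] at h3
      exact (mul_eq_zero.1 h3).resolve_left h2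
    · rintro _ ⟨x, -, rfl⟩
      have h3 : act u y - act u⁻¹ y = 0 := by rw [← hNa]; exact hy.2
      show kf F (N x) y = 0
      rw [hNa, map_sub, LinearMap.sub_apply, kf_act', kf_act', inv_inv, ← map_sub, ← neg_sub, h3, neg_zero, map_zero]
  have k5 : A ⊓ (B ⊓ LinearMap.ker N) = ⊥ := by
    rw [eq_bot_iff]
    rintro y ⟨h3, h4, -⟩
    have h6 := (mB y).1 h4
    rw [(mA y).1 h3, eq_neg_iff_add_eq_zero, ← two_smul F] at h6
    exact (smul_eq_zero.1 h6).resolve_left h2
  have k6 := Submodule.finrank_sup_add_finrank_inf_eq A (B ⊓ LinearMap.ker N)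
  rw [k5, finrank_bot] at k6
  have k7 := Submodule.finrank_mono k4
  have k8 : A ⊓ LinearMap.ker N ≤ D := by
    rintro y ⟨h3, h4⟩
    refine hD y ((mA y).1 h3) ?_
    have h6 : act u y = act u⁻¹ y := by rw [← sub_eq_zero, ← hNa]; exact h4
    have h7 : act (u * u) y = y := by rw [act_mul, h6, act_inv']
    have h8 : u = u * u * (u * u) * (u * u) := by
      rw [← mul_one u, ← hu]
      simp only [pow_succ, pow_zero, one_mul, mul_assoc]
      have h9 : u * (u * (u * (u * u))) = 1 := by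
        rw [← hu]
        simp only [pow_succ, pow_zero, one_mul, mul_assoc]
      simp only [h9, mul_one]
    rw [h8, act_mul, act_mul, h7, h7, h7]
  have k9 := Submodule.finrank_mono k8
  have k10 : ev (LK F s) 1 = finrank F ↥A := by rw [hA]; rfl
  omega

end syl

section elts

variable {F : Type*} [Field F] {W : Type*} [AddCommGroup W] [Module F W]
  (ρ : Representation F ↥(alternatingGroup (Fin 6)) W)

theorem P_mul_eq {a b c d : List (ℕ × ℕ)} (h : (vl 6 a && vl 6 b && vl 6 c && vl 6 d && cd 6 (a ++ b) == cd 6 (c ++ d)) = true) :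
    P 6 a * P 6 b = P 6 c * P 6 d := by
  simp only [Bool.and_eq_true, beq_iff_eq] at h
  obtain ⟨⟨⟨⟨h1, h2⟩, h3⟩, h4⟩, h5⟩ := h
  rw [← P_append le_rfl h1 h2, ← P_append le_rfl h3 h4, P_eq_iff le_rfl (vl_append h1 h2) (vl_append h3 h4)]
  exact h5

theorem ev_of_cd {a b c : List (ℕ × ℕ)} (h : (vl 6 a && vl 6 c && vl 6 c && vl 6 b && cd 6 (a ++ c) == cd 6 (c ++ b)) = true) :
    ev (ρ (P 6 a)) 1 = ev (ρ (P 6 b)) 1 := by
  rw [← H944.E6T.ev_conj ρ (P 6 c) (P 6 b), ← P_mul_eq h, mul_inv_cancel_right]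

end elts

/-- **C65** -/
theorem c65 : CASE.{u} 6 fun p => p = 5 := by
  intro F _ _ p _ _ hp H φ hM hfx
  subst hp
  have hne : ∀ k : ℕ, ¬ 5 ∣ k → (k : F) ≠ 0 := fun k hk h => hk ((CharP.cast_eq_zero_iff F 5 k).1 h)
  let ρ : Representation F ↥(alternatingGroup (Fin 6)) (L8 F) := (LK F).comp φ
  have hρ : ∀ a, ρ a = LK F (φ a) := fun _ => rfl
  have k1 := ineq_a (ρ := ρ) hfx
  have k2 := dim8 (ρ := ρ) (hne 8 (by norm_num))
  have k3 := dim36 (ρ := ρ) (hne 36 (by norm_num))
  have e42 : P 6 (rp.getD 2 []) ^ 2 = P 6 (rp.getD 1 []) := P_pow_eq le_rfl (by decide) (by decide) (by decide)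
  rw [P_nil, om_one, finrank_L8, om_prime ρ Nat.prime_two (orderOf_P (m := 6) le_rfl (by decide +kernel)),
    om_four ρ (orderOf_P (m := 6) le_rfl (by decide +kernel)), e42, finrank_L8] at k2 k3
  rw [om_prime ρ Nat.prime_three (orderOf_P (m := 6) le_rfl (by decide +kernel)),
    om_prime ρ Nat.prime_three (orderOf_P (m := 6) le_rfl (by decide +kernel)), finrank_L8] at k3
  -- the involution and the element of order 5
  have k4 : 5 * ev (ρ (P 6 (rp.getD 1 []))) 1 ≤ 5 * finrank F ↥(inv ρ (Tg 6 g10)) + 496 := by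
    refine syl (s := φ (P 6 (rp.getD 1 []))) (u := φ (P 6 (g10.getD 0 []))) ?_ ?_ fun v h1 h2 => ?_
    · rw [← map_pow, P_pow_one (m := 6) le_rfl (by decide) (by decide), map_one]
    · rw [eq_inv_mul_iff_mul_eq, ← map_mul, ← map_mul, ← P_append (m := 6) le_rfl (by decide) (by decide),
        P_mul_eq (c := rp.getD 1 []) (d := []) (by decide), P_nil, mul_one]
    · refine mem_inv_Tg fun g hg => ?_
      rcases List.mem_pair.1 hg with rfl | rfl
      · exact h2
      · exact h1
  -- the element of order 4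
  have k5 := Inf.tab Inf.chk_T4 (hne 4 (by norm_num)) (x := φ (P 6 (rp.getD 2 []))) (by
    rw [← map_pow, P_pow_one (m := 6) le_rfl (by decide) (by decide), map_one]) (by simp)
  have k6 : ev (ρ (P 6 (rp.getD 1 []))) 1 ≠ 248 := fun h => by
    have h1 := Inf.eq_one_of_ev h
    rw [← map_one φ, ← P_nil] at h1
    exact P_ne (m := 6) le_rfl (by decide) (by decide) (by decide) (hM.inj h1)
  simp only [Inf.T4, List.map, pow_one, ← map_pow, e42, ← hρ, List.mem_cons, List.cons.injEq, and_true,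
    List.not_mem_nil, or_false] at k5
  -- the elements of order 3
  have e33 : P 6 (rp.getD 3 []) * P 6 [(3, 4), (4, 5)] = P 6 (rp.getD 4 []) :=
    (P_append (m := 6) le_rfl (by decide) (by decide)).symm
  have e33' : P 6 (rp.getD 3 []) * (P 6 [(3, 4), (4, 5)])⁻¹ = P 6 [(0, 1), (1, 2), (4, 5), (3, 4)] := by
    rw [mul_inv_eq_iff_eq_mul, P_mul_eq (c := rp.getD 3 []) (d := []) (by decide), P_nil, mul_one]
  have k7 := Two.t33 (by exact_mod_cast hne 3 (by norm_num)) (x := φ (P 6 (rp.getD 3 []))) (y := φ (P 6 [(3, 4), (4, 5)]))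
    (by rw [← map_pow, P_pow_one (m := 6) le_rfl (by decide) (by decide), map_one])
    (by rw [← map_pow, P_pow_one (m := 6) le_rfl (by decide) (by decide), map_one])
    (Commute.map (P_mul_eq (by decide)) φ)
    (fun h => by
      rw [← map_one φ, ← P_nil] at h
      exact P_ne (m := 6) le_rfl (by decide) (by decide) (by decide) (hM.inj h))
    (fun h => by
      rw [← map_mul, e33, ← map_one φ, ← P_nil] at h
      exact P_ne (m := 6) le_rfl (by decide) (by decide) (by decide) (hM.inj h))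
    (ev_of_cd ρ (c := g36.getD 1 []) (by decide))
    (by
      rw [← map_inv, ← map_mul, ← map_mul, e33, e33']
      exact (ev_of_cd ρ (c := g36.getD 1 []) (by decide)).symm)
  rw [← map_mul, e33, ← hρ, ← hρ] at k7
  generalize ev (ρ (P 6 (rp.getD 1 []))) 1 = d2 at *
  generalize ev (ρ (P 6 (rp.getD 2 []))) 1 = d4 at *
  generalize ev (ρ (P 6 (rp.getD 3 []))) 1 = d3 at *
  generalize ev (ρ (P 6 (rp.getD 4 []))) 1 = d33 at *
  generalize finrank F ↥(inv ρ (Tg 6 g8)) = f8 at *
  generalize finrank F ↥(inv ρ (Tg 6 g36)) = f36 at *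
  generalize finrank F ↥(inv ρ (Tg 6 g10)) = f10 at *
  have k2' : 8 * f8 + 992 = 8 * d2 + 4 * d4 := by
    have h1 : (8 * f8 + 992 : ℚ) = 8 * d2 + 4 * d4 := by
      push_cast at k2
      linarith
    exact_mod_cast h1
  have k3' : 36 * f36 + 2976 = 36 * d4 + 6 * d3 + 6 * d33 := by
    have h1 : (36 * f36 + 2976 : ℚ) = 36 * d4 + 6 * d3 + 6 * d33 := by
      push_cast at k3
      linarith
    exact_mod_cast h1
  omega

end Cfsg.Agent.E8A.C65
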